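import Cfsg.Agent.H346.AmLie
import Cfsg.Agent.H346.AmArith
import Cfsg.Agent.H346.AmPsu
import Cfsg.Agent.EvenQT.Main
import Cfsg.Agent.GpLn.Rank
import Cfsg.Agent.CpAut.SporThree.ON
import Cfsg.Agent.BpTab.Spor
import Cfsg.Agent.OrdDiv.Table
import Cfsg.Agent.Mrg.Omega.ML.LieTwF4

/-!
# Elimination of the known simple groups
-/

set_option autoImplicit false

namespace Cfsg.Agent.H346.AmElim

open Subgroup Cfsg Cfsg.Lie Cfsg.Agent.OrdDiv
open Cfsg.Agent.H346.AmArith

universe u v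

/-- What we know about the group. -/
structure Facts (G : Type u) [Group G] : Prop where
  c27 : 27 ∣ Nat.card G
  c81 : ¬ 81 ∣ Nat.card G
  cm : Nat.card G / 27 % 3 = 1
  le : PRankLE 3 2 G
  ge : PRankAtLeast 3 2 G
  good : ∀ x : G, orderOf x = 3 → Am.Good x
  tt : ∃ t : G, orderOf t = 2 ∧ ∃ m, Nat.card (centralizer ({t} : Set G)) = 3 * m ∧ m % 3 = 1

theorem card_cent_iso {G : Type u} {H : Type v} [Group G] [Group H] (e : G ≃* H) (x : G) :
    Nat.card (centralizer ({e x} : Set H)) = Nat.card (centralizer ({x} : Set G)) := by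
  refine (Nat.card_congr (Equiv.subtypeEquiv e.toEquiv fun g => ?_)).symm
  rw [mem_centralizer_singleton_iff, mem_centralizer_singleton_iff]
  change g * x = x * g ↔ e g * e x = e x * e g
  rw [← map_mul, ← map_mul, e.injective.eq_iff]

theorem rank_congr {X : Type u} {Y : Type v} [Group X] [Group Y] (e : X ≃* Y) {p k : ℕ}
    (h : PRankAtLeast p k X) : PRankAtLeast p k Y := by
  obtain ⟨A, h1, h2, h3⟩ := h
  refine ⟨A.map e.toMonoidHom, inferInstance, ?_, ?_⟩
  · rintro _ ⟨a, ha, rfl⟩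
    rw [← map_pow, h2 a ha, map_one]
  · rw [Subgroup.card_map_of_injective e.injective]
    exact h3

theorem Facts.congr {G : Type u} {H : Type v} [Group G] [Group H] (F : Facts G) (e : G ≃* H) : Facts H := by
  have hc : Nat.card H = Nat.card G := (Nat.card_congr e.toEquiv).symm
  refine ⟨by rw [hc]; exact F.c27, by rw [hc]; exact F.c81, by rw [hc]; exact F.cm,
    (Cfsg.Agent.OddOrderLocal.Rank.pRankLE_congr e.symm).2 F.le, rank_congr e F.ge, ?_, ?_⟩
  · intro x hx u v hu hv h1 h2 h3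
    have ho : ∀ y : H, orderOf (e.symm y) = orderOf y := fun y => e.symm.orderOf_eq y
    rw [← card_cent_iso e.symm x]
    refine F.good (e.symm x) ((ho x).trans hx) (e.symm u) (e.symm v) ?_ ?_ ?_ ?_ ?_
    · rw [← map_mul, ← map_mul, hu]
    · rw [← map_mul, ← map_mul, hv]
    · rw [ho]; exact h1
    · rw [ho]; exact h2
    · rw [← map_mul, ho]; exact h3
  · obtain ⟨t, h1, m, h2, h3⟩ := F.tt
    exact ⟨e t, (e.orderOf_eq t).trans h1, m, (card_cent_iso e t).trans h2, h3⟩

theorem Facts.out {G : Type u} [Group G] (F : Facts G) (h : Out (Nat.card G)) : False := h ⟨F.c27, F.c81⟩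

/-! ### fields -/

section field
variable {F : Type} [Field F] [Fintype F]

theorem exists_three (h : 3 ∣ Fintype.card F) : ∃ a, Fintype.card F = 3 ^ a := by
  obtain ⟨p, k, hp, hk, he⟩ := Fintype.isPrimePow_card_of_field (α := F)
  rw [← he] at h
  have h1 := (Nat.prime_dvd_prime_iff_eq Nat.prime_three hp.nat_prime).1 (Nat.prime_three.dvd_of_dvd_pow h)
  rw [← h1] at he
  exact ⟨k, he.symm⟩

theorem three_ne (h : ¬ 3 ∣ Fintype.card F) : (3 : F) ≠ 0 := by
  intro h0
  obtain ⟨p, hc⟩ := CharP.exists F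
  have h1 : p ∣ 3 := (CharP.cast_eq_zero_iff F p 3).1 (by exact_mod_cast h0)
  have hp : p.Prime := (CharP.char_is_prime_or_zero F p).resolve_right (CharP.char_ne_zero_of_finite F p)
  have h2 := (Nat.prime_dvd_prime_iff_eq hp Nat.prime_three).1 h1
  subst h2
  exact h ((CharP.cast_eq_zero_iff F 3 _).1 (Nat.cast_card_eq_zero F))

end field

/-! ### linear groups -/

section psl
variable {F : Type} [Field F] [Fintype F]

theorem psl {n : ℕ} (hn : 2 ≤ n) (hn2 : n = 2 → 4 ≤ Fintype.card F)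
    (X : Facts (Matrix.ProjectiveSpecialLinearGroup (Fin n) F)) : n = 3 ∧ Fintype.card F = 3 := by
  have hq : 1 < Fintype.card F := Fintype.one_lt_card
  have hc : Nat.gcd n (Fintype.card F - 1) * (Fintype.card F - 1) *
      Nat.card (Matrix.ProjectiveSpecialLinearGroup (Fin n) F) = glN n (Fintype.card F) := by
    have h := S0243.result (F := F) rfl n hn
    rw [Fin.prod_univ_eq_prod_range (fun i => Fintype.card F ^ n - Fintype.card F ^ i) n, ← prod_list] at h
    rw [mul_assoc]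
    exact h
  rcases Nat.lt_or_ge n 6 with h6 | h6
  swap
  · exact absurd X.le (Cfsg.Agent.Omega.SQK.Cls.psl_six h6)
  rcases Nat.lt_or_ge n 4 with h4 | h4
  swap
  · exfalso
    by_cases hm : Fintype.card F % 3 = 1
    · exact Cfsg.Agent.Omega.SQK.Cls.psl_of h4 Nat.prime_three (by norm_num) (by omega) X.le
    · exact X.out (out_psl_45 (by omega) hm hq hc)
  rcases Nat.lt_or_ge n 3 with h3 | h3
  · exfalso
    have hn' : n = 2 := by omega
    subst hn'
    by_cases h3 : 3 ∣ Fintype.card F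
    · have h27 := psl_two_27 h3 hq hc X.c27
      obtain ⟨a, ha⟩ := exists_three h3
      refine Cfsg.Agent.Omega.SQK.Row.Classical.pslOdd F 3 a 2 Nat.prime_three (by norm_num) ha le_rfl ?_ X.le
      have := Nat.le_of_dvd (by omega) h27
      simp
      omega
    · have h1 := Cfsg.Agent.CpAutG.rank_psl_two (three_ne h3)
      obtain ⟨A, hA, hAp, hA4⟩ := X.ge
      have := h1 A hA hAp
      omega
  · have hn' : n = 3 := by omega
    subst hn'
    refine ⟨rfl, ?_⟩
    by_cases h3 : 3 ∣ Fintype.card F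
    · obtain ⟨a, ha⟩ := exists_three h3
      rcases Nat.lt_or_ge a 2 with h2 | h2
      · interval_cases a
        · rw [ha] at h3; norm_num at h3
        · exact ha
      · exfalso
        have h9 : 9 ∣ Fintype.card F := by
          rw [ha]
          exact (pow_dvd_pow 3 h2 : 3 ^ 2 ∣ 3 ^ a)
        exact X.out (out_psl_39 h9 hq hc)
    · exfalso
      by_cases hm : Fintype.card F % 3 = 1
      · exact X.out (out_psl_three hm hq hc)
      · have h1 := Cfsg.Agent.GpLn.Rank.mul_ord_le_psl (F := F) Nat.prime_three (by exact_mod_cast three_ne h3)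
          (by omega) X.ge
        have h2 : orderOf ((Nat.card F : ℕ) : ZMod 3) ≠ 1 := by
          intro h
          rw [orderOf_eq_one_iff, Nat.card_eq_fintype_card] at h
          have h4 : ((Fintype.card F : ℕ) : ZMod 3) = ((1 : ℕ) : ZMod 3) := by rw [h]; simp
          rw [ZMod.natCast_eq_natCast_iff'] at h4
          omega
        have h3 : 0 < orderOf ((Nat.card F : ℕ) : ZMod 3) := by
          rw [orderOf_pos_iff, isOfFinOrder_iff_pow_eq_one]
          refine ⟨2, by norm_num, ?_⟩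
          rw [Nat.card_eq_fintype_card]
          have h4 : ((Fintype.card F : ℕ) : ZMod 3) = ((2 : ℕ) : ZMod 3) := by
            rw [ZMod.natCast_eq_natCast_iff']
            omega
          rw [h4]
          rfl
        omega

end psl

/-! ### unitary groups -/

section psu
variable {F : Type} [Field F] [Fintype F]

theorem psu {n q : ℕ} (hF : Fintype.card F = q ^ 2) (hn : 3 ≤ n) (X : Facts (PSU n F q)) : False := by
  have hq2 : IsPrimePow (q ^ 2) := hF ▸ Fintype.isPrimePow_card_of_field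
  have hqp : IsPrimePow q := (isPrimePow_pow_iff (by norm_num)).1 hq2
  have hc : Nat.gcd n (q + 1) * (q + 1) * Nat.card (PSU n F q) = q ^ (n * (n - 1) / 2) * prU q n := by
    have h := S0280.result hF n (by omega)
    rw [← prod_list] at h
    have h2 : prU q n = ((List.range n).map fun i => if Even i then q ^ (i + 1) + 1 else q ^ (i + 1) - 1).prod := by
      unfold prU
      congr 1
      apply List.map_congr_left
      intro i _
      by_cases h : Even i
      · rw [if_pos h, if_pos]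
        rw [Nat.beq_eq]
        exact Nat.even_iff.1 h
      · rw [if_neg h, if_neg]
        rw [Nat.beq_eq, ← Nat.even_iff]
        exact h
    rw [h2, mul_assoc]
    exact h
  by_cases hn3 : n = 3 → ¬ 3 ∣ q ∧ q % 3 = 2
  · exact X.out (out_psu hn hn3 hc hqp.one_lt.le)
  push Not at hn3
  obtain ⟨rfl, hn4⟩ := hn3
  by_cases h3 : 3 ∣ q
  · have h3' : 3 ∣ Fintype.card F := by rw [hF]; exact dvd_pow h3 (by norm_num)
    obtain ⟨p, k, hp, hk, he⟩ := hqp
    have h1 : 3 = p := (Nat.prime_dvd_prime_iff_eq Nat.prime_three hp.nat_prime).1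
      (Nat.prime_three.dvd_of_dvd_pow (by rw [he]; exact h3))
    rw [← h1] at he
    rcases Nat.lt_or_ge k 2 with h2 | h2
    · have hk1 : k = 1 := by omega
      subst hk1
      rw [pow_one] at he
      subst he
      rw [prU_three] at hc
      norm_num at hc
      have h5 := X.cm
      have h6 : Nat.card (PSU 3 F 3) = 6048 := by omega
      rw [h6] at h5
      norm_num at h5
    · have h9 : 9 ∣ q := by
        rw [← he]
        exact (pow_dvd_pow 3 h2 : 3 ^ 2 ∣ 3 ^ k)
      exact X.out (out_psu_39 h9 hc)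
  · have hm := hn4 h3
    have : Fact (Nat.Prime 3) := ⟨Nat.prime_three⟩
    have h3' : ¬ 3 ∣ Fintype.card F := by
      rw [hF]
      intro h
      exact h3 (Nat.prime_three.dvd_of_dvd_pow h)
    have := AmPsu.rank_le hF le_rfl (p := 3) (by exact_mod_cast three_ne h3') (cop3 (by omega)) X.ge
    omega

end psu

/-! ### symplectic and orthogonal groups -/

section cl
variable {F : Type} [Field F] [Fintype F]

theorem psp {m : ℕ} (hm : 2 ≤ m) (X : Facts (PSp m F)) : False := by
  have hc : Nat.gcd 2 (Fintype.card F - 1) * Nat.card (PSp m F) =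
      Fintype.card F ^ (m ^ 2) * prB (Fintype.card F) m := by
    have h1 := S0245.result (F := F) rfl m
    have h2 := S0246.result (F := F) rfl m (by omega)
    have h3 := Subgroup.card_eq_card_quotient_mul_card_subgroup
      (Subgroup.center (Matrix.symplecticGroup (Fin m) F))
    rw [← prod_list (fun i => Fintype.card F ^ (2 * (i + 1)) - 1)] at h1
    rw [h1, h2] at h3
    rw [mul_comm]
    exact h3.symm
  exact X.out (out_psp hm (cop_gcd2 _) hc)

theorem oodd {m : ℕ} (hm : 3 ≤ m) (ho : Odd (Fintype.card F)) (X : Facts (POmega F (quadFormOdd m F))) : False := by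
  have hc : 2 * Nat.card (POmega F (quadFormOdd m F)) = Fintype.card F ^ (m ^ 2) * prB (Fintype.card F) m := by
    have h := S0292.result (F := F) rfl ho m hm
    rw [← prod_list (fun i => Fintype.card F ^ (2 * (i + 1)) - 1)] at h
    exact h
  exact X.out (out_psp (by omega) (by norm_num) hc)

theorem oplus {m : ℕ} (hm : 4 ≤ m) (X : Facts (POmega F (quadFormPlus m F))) : False := by
  have hc : Nat.gcd 4 (Fintype.card F ^ m - 1) * Nat.card (POmega F (quadFormPlus m F)) =
      Fintype.card F ^ (m * (m - 1)) * ((Fintype.card F ^ m - 1) * prB (Fintype.card F) (m - 1)) := by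
    have h := S0293.result (F := F) rfl m hm
    rw [← prod_list (fun i => Fintype.card F ^ (2 * (i + 1)) - 1)] at h
    rw [← mul_assoc (Fintype.card F ^ (m * (m - 1)))]
    exact h
  refine X.out (out_plus hm (cop_gcd4 _) ?_ hc)
  have : 4 * 3 ≤ m * (m - 1) := Nat.mul_le_mul hm (by omega)
  omega

theorem ominus {m : ℕ} (hm : 4 ≤ m) {a b : F}
    (hab : ∀ z₁ z₂ : F, z₁ ^ 2 + a * z₁ * z₂ + b * z₂ ^ 2 = 0 → z₁ = 0 ∧ z₂ = 0)
    (X : Facts (POmega F (quadFormMinus (m - 1) F a b))) : False := by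
  have hc : Nat.gcd 4 (Fintype.card F ^ m + 1) * Nat.card (POmega F (quadFormMinus (m - 1) F a b)) =
      Fintype.card F ^ (m * (m - 1)) * ((Fintype.card F ^ m + 1) * prB (Fintype.card F) (m - 1)) := by
    have h := S0294.result (F := F) rfl m hm a b hab
    rw [← prod_list (fun i => Fintype.card F ^ (2 * (i + 1)) - 1)] at h
    rw [← mul_assoc (Fintype.card F ^ (m * (m - 1)))]
    exact h
  refine X.out (out_plus hm (cop_gcd4 _) ?_ hc)
  have : 4 * 3 ≤ m * (m - 1) := Nat.mul_le_mul hm (by omega)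
  omega

end cl

/-! ### alternating groups -/

theorem alt {n : ℕ} (hn : 5 ≤ n) (X : Facts ↥(alternatingGroup (Fin n))) : False := by
  have hc := alt_card hn (MulEquiv.refl ↥(alternatingGroup (Fin n)))
  rcases Nat.lt_or_ge n 9 with h9 | h9
  · have h1 : 27 ∣ n.factorial := by
      rw [hc]
      exact dvd_mul_of_dvd_right X.c27 2
    interval_cases n <;> revert h1 <;> decide
  · refine X.out (out_of ?_)
    have h1 : 81 ∣ n.factorial := by
      refine dvd_trans ?_ (Nat.factorial_dvd_factorial h9)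
      decide
    rw [hc] at h1
    exact (by norm_num : Nat.Coprime 81 2).dvd_of_dvd_mul_left h1

/-! ### exceptional groups -/

section exc

variable (T : OrderTable.{u})

theorem dvd81_of {q c : ℕ} (k : ℕ) (hk : 4 ≤ k) {d x : ℕ} (hd : Nat.Coprime 3 d)
    (h : d * c = q ^ k * ((q ^ 2 - 1) * ((q ^ 6 - 1) * ((q ^ 8 - 1) * x)))) : Out c := by
  by_cases h3 : 3 ∣ q
  · exact out_of_cop hd h (Dvd.dvd.mul_right (three_pow_dvd h3 hk) _)
  · refine out_of_cop hd h (Dvd.dvd.mul_left ?_ _)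
    have h1 : 3 * (9 * (3 * 1)) ∣ (q ^ 2 - 1) * ((q ^ 6 - 1) * ((q ^ 8 - 1) * x)) :=
      mul_dvd_mul (d2 h3) (mul_dvd_mul (d6 h3) (mul_dvd_mul (d2k h3 4) (one_dvd _)))
    exact h1

include T

theorem f4 {F : Type} [Field F] [Fintype F] (X : Facts ↥(Lie.chevF4.group F)) : False := by
  refine X.out (dvd81_of (q := Fintype.card F) 24 (by norm_num) (d := 1) (x := Fintype.card F ^ 12 - 1) (by norm_num) ?_)
  rw [T.f4 F _ rfl]
  ring

theorem e7 {F : Type} [Field F] [Fintype F] (X : Facts ↥(Lie.chevE7.group F)) : False := by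
  refine X.out (dvd81_of (q := Fintype.card F) 63 (by norm_num) (d := Nat.gcd 2 (Fintype.card F - 1))
    (x := (Fintype.card F ^ 10 - 1) * (Fintype.card F ^ 12 - 1) *
      (Fintype.card F ^ 14 - 1) * (Fintype.card F ^ 18 - 1)) (cop_gcd2 _) ?_)
  rw [T.e7 F _ rfl]
  ring

theorem e8 {F : Type} [Field F] [Fintype F] (X : Facts ↥(Lie.chevE8.group F)) : False := by
  refine X.out ?_
  have h := T.e8 F _ rfl
  by_cases h3 : 3 ∣ Fintype.card F
  · rw [h]
    refine out_of (dvd_trans (three_pow_dvd h3 (n := 120) (by norm_num)) ⟨_, by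
      rw [mul_assoc, mul_assoc, mul_assoc, mul_assoc, mul_assoc, mul_assoc, mul_assoc]⟩)
  · rw [h]
    have h1 : 3 * 9 * 9 ∣ (Fintype.card F ^ 2 - 1) * (Fintype.card F ^ 12 - 1) * (Fintype.card F ^ 18 - 1) :=
      mul_dvd_mul (mul_dvd_mul (d2 h3) (d6k h3 2)) (d6k h3 3)
    refine out_of (dvd_trans (by norm_num) (dvd_trans h1 ⟨Fintype.card F ^ 120 * (Fintype.card F ^ 8 - 1) *
      (Fintype.card F ^ 14 - 1) * (Fintype.card F ^ 20 - 1) * (Fintype.card F ^ 24 - 1) *
      (Fintype.card F ^ 30 - 1), by ring⟩))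

/-- `E₆` and `²E₆` -/
theorem out_e6 {q c g x : ℕ} (hg : g ∣ 3)
    (h : g * c = q ^ 36 * ((q ^ 2 - 1) * ((q ^ 6 - 1) * ((q ^ 8 - 1) * ((q ^ 12 - 1) * x))))) : Out c := by
  have h729 : 3 * 81 ∣ g * c := by
    rw [h]
    by_cases h3 : 3 ∣ q
    · have h1 : 3 ^ 36 ∣ q ^ 36 := pow_dvd_pow_of_dvd h3 36
      exact (dvd_trans (by norm_num) h1).mul_right _
    · have h1 : 3 * (9 * (3 * (9 * 1))) ∣ (q ^ 2 - 1) * ((q ^ 6 - 1) * ((q ^ 8 - 1) * ((q ^ 12 - 1) * x))) :=
        mul_dvd_mul (d2 h3) (mul_dvd_mul (d6 h3) (mul_dvd_mul (d2k h3 4) (mul_dvd_mul (d6k h3 2) (one_dvd _))))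
      exact (dvd_trans (by norm_num) h1).mul_left _
  rcases (Nat.dvd_prime Nat.prime_three).1 hg with h1 | h1
  · rw [h1, one_mul] at h729
    exact out_of (dvd_trans (by norm_num) h729)
  · rw [h1] at h729
    exact out_of ((Nat.mul_dvd_mul_iff_left (by norm_num)).1 h729)

theorem e6 {F : Type} [Field F] [Fintype F] (X : Facts ↥(Lie.chevE6.group F)) : False := by
  refine X.out (out_e6 T (q := Fintype.card F) (g := Nat.gcd 3 (Fintype.card F - 1))
    (x := (Fintype.card F ^ 5 - 1) * (Fintype.card F ^ 9 - 1)) (Nat.gcd_dvd_left _ _) ?_)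
  rw [T.e6 F _ rfl]
  ring

theorem te6 {F : Type} [Field F] [Fintype F] {q : ℕ} (hq : IsPrimePow q) (hF : Fintype.card F = q ^ 2)
    (X : Facts ↥(Lie.twistedE6 F q)) : False := by
  refine X.out (out_e6 T (q := q) (g := Nat.gcd 3 (q + 1))
    (x := (q ^ 5 + 1) * (q ^ 9 + 1)) (Nat.gcd_dvd_left _ _) ?_)
  rw [T.te6 F q hq hF]
  ring

theorem td4 {F : Type} [Field F] [Fintype F] {q : ℕ} (hq : IsPrimePow q) (hF : Fintype.card F = q ^ 3)
    (X : Facts ↥(Lie.twistedD4 F q)) : False := by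
  refine X.out ?_
  rw [T.td4 F q hq hF]
  by_cases h3 : 3 ∣ q
  · exact out_of ((((three_pow_dvd h3 (n := 12) (by norm_num)).mul_right _).mul_right _).mul_right _)
  · have h8 : 3 ∣ q ^ 8 + q ^ 4 + 1 := by
      have h1 : q % 3 = 1 ∨ q % 3 = 2 := by omega
      apply Nat.dvd_of_mod_eq_zero
      rw [Nat.add_mod, Nat.add_mod (q ^ 8), Nat.pow_mod, Nat.pow_mod q 4]
      rcases h1 with h1 | h1 <;> rw [h1]
    have h1 : 3 * 9 * 3 ∣ (q ^ 2 - 1) * (q ^ 6 - 1) * (q ^ 8 + q ^ 4 + 1) :=
      mul_dvd_mul (mul_dvd_mul (d2 h3) (d6 h3)) h8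
    exact out_of (dvd_trans h1 ⟨q ^ 12, by ring⟩)

theorem g2 {F : Type} [Field F] [Fintype F] (hq : 3 ≤ Fintype.card F) (X : Facts ↥(Lie.chevG2.group F)) : False := by
  by_cases h3 : 3 ∣ Fintype.card F
  · refine X.out ?_
    rw [T.g2 F]
    exact out_of (((three_pow_dvd h3 (n := 6) (by norm_num)).mul_right _).mul_right _)
  · obtain ⟨x, hx, hb⟩ := AmLie.bad_G2 F (three_ne h3) (by rw [Nat.card_eq_fintype_card]; exact hq)
    exact hb (X.good x hx)

theorem sz {F : Type} [Field F] [Fintype F] {m : ℕ} (hm : 1 ≤ m) (hF : Fintype.card F = 2 ^ (2 * m + 1))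
    (X : Facts ↥(Lie.Sz F (2 ^ (m + 1)))) : False := by
  have h := X.c27
  rw [T.sz F m hm hF] at h
  have h3 : (2 ^ (2 * m + 1)) % 3 = 2 := by
    obtain ⟨k, rfl⟩ : ∃ k, m = k + 1 := ⟨m - 1, by omega⟩
    have := (odd_pow_mod k).2.2
    rw [show 2 * (k + 1) + 1 = 2 * k + 3 by ring]
    exact this
  generalize hq : 2 ^ (2 * m + 1) = q at h h3
  have h3' : ¬ 3 ∣ q := by omega
  have h1 : Nat.Coprime 3 (q ^ 2 * (q - 1) * (q ^ 2 + 1)) :=
    Nat.Coprime.mul_right (Nat.Coprime.mul_right (Nat.Coprime.pow_right 2 (cop3 h3')) (cop3 (by omega)))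
      (cop3 (not3_sq h3'))
  have h2 : 3 ∣ q ^ 2 * (q - 1) * (q ^ 2 + 1) := dvd_trans (by norm_num) h
  have := Nat.Coprime.eq_one_of_dvd h1 h2
  norm_num at this

theorem ree {F : Type} [Field F] [Fintype F] {m : ℕ} (hm : 1 ≤ m) (hF : Fintype.card F = 3 ^ (2 * m + 1))
    (X : Facts ↥(Lie.twistedG2 F (3 ^ m))) : False := by
  refine X.out ?_
  rw [T.ree F m hm hF]
  have h1 : 3 ^ 4 ∣ (3 ^ (2 * m + 1)) ^ 3 := by
    rw [← pow_mul]
    exact pow_dvd_pow 3 (by omega)
  exact out_of ((h1.mul_right _).mul_right _)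

omit T in
theorem tf4 {K : Type u} [Group K] [Finite K] (h : Lie.Iso2F4 K) (X : Facts K) : False := by
  obtain ⟨F, _, _, σ, m, G, _, _, S, hcard, hF, hR, ⟨e⟩⟩ := Cfsg.Agent.Omega.ML.LieTwF4.exists_full h
  have hm : 1 ≤ m := by
    by_contra hm
    have hm0 : m = 0 := by omega
    subst hm0
    obtain ⟨c, hc⟩ := hF
    have h1 : Nat.card Fˣ = 1 := by
      rw [Nat.card_units, hcard]
      norm_num
    have h2 := Nat.card_eq_one_iff_unique.1 h1
    exact hc (@Subsingleton.elim _ h2.1 _ _)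
  obtain ⟨x, hx, hb⟩ := AmLie.bad_full S hcard hm
  exact hb ((X.congr e.symm).good x hx)

end exc

end Cfsg.Agent.H346.AmElim
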